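import Cfsg.Agent.Lib.Pres.Cover

/-!
Finite lists of relations and their consequences.
-/

set_option autoImplicit false

namespace Cfsg.Agent.Pres

open Subgroup
open scoped commutatorElement

universe u

/-- at most `k` relations hold in `G` and force the property `p` -/
def Rels {H : Type u} {G : Type*} [Group H] [Group G] (Φ : H →* G) (k : ℕ)
    (p : ∀ (J : Type u) [Group J], (H →* J) → (J →* G) → Prop) : Prop :=
  ∃ R : List H, R.length ≤ k ∧ (∀ x ∈ R, Φ x = 1) ∧ ∀ (J : Type u) [Group J] (ψ : H →* J)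
    (φ : J →* G), (∀ x, φ (ψ x) = Φ x) → (∀ x ∈ R, ψ x = 1) → p J ψ φ

namespace Rels

variable {H : Type u} {G : Type*} [Group H] [Group G] {Φ : H →* G} {k k' : ℕ}
  {p p' : ∀ (J : Type u) [Group J], (H →* J) → (J →* G) → Prop} {a b : H}

theorem eq (h : Φ a = Φ b) : Rels Φ 1 fun _ _ ψ _ => ψ a = ψ b :=
  ⟨[a * b⁻¹], le_rfl, by simp [h], fun _ _ ψ _ _ h => by simpa [mul_inv_eq_one] using h⟩

theorem and (h : Rels Φ k p) (h' : Rels Φ k' p') :
    Rels Φ (k + k') fun J _ ψ φ => p J ψ φ ∧ p' J ψ φ :=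
  let ⟨R, a1, a2, a3⟩ := h; let ⟨R', b1, b2, b3⟩ := h'
  ⟨R ++ R', by rw [List.length_append]; omega, List.forall_mem_append.2 ⟨a2, b2⟩,
    fun J _ ψ φ e r => ⟨a3 J ψ φ e (List.forall_mem_append.1 r).1,
      b3 J ψ φ e (List.forall_mem_append.1 r).2⟩⟩

theorem mono (h : Rels Φ k p) (hk : k ≤ k')
    (hp : ∀ (J : Type u) [Group J] (ψ : H →* J) (φ : J →* G), (∀ x, φ (ψ x) = Φ x) → p J ψ φ →
      p' J ψ φ) : Rels Φ k' p' :=
  let ⟨R, a1, a2, a3⟩ := h; ⟨R, a1.trans hk, a2, fun J _ ψ φ e r => hp J ψ φ e (a3 J ψ φ e r)⟩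

theorem comm (h : Commute (Φ a) (Φ b)) : Rels Φ 1 fun _ _ ψ _ => Commute (ψ a) (ψ b) :=
  (eq (a := a * b) (b := b * a) (by simpa using h.eq)).mono le_rfl fun _ _ _ _ _ h => by
    rwa [map_mul, map_mul] at h

theorem mem {K : Subgroup H} (h : Φ a ∈ K.map Φ) : Rels Φ 1 fun _ _ ψ _ => ψ a ∈ K.map ψ :=
  let ⟨b, hb, e⟩ := h; (eq e).mono le_rfl fun _ _ _ _ _ h => ⟨b, hb, h⟩

theorem list {ι : Type*} (l : List ι) {p : ι → ∀ (J : Type u) [Group J], (H →* J) → (J →* G) → Prop}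
    (h : ∀ x ∈ l, Rels Φ k (p x)) : Rels Φ (l.length * k) fun J _ ψ φ => ∀ x ∈ l, p x J ψ φ := by
  induction l with
  | nil => exact ⟨[], by simp, by simp, by simp⟩
  | cons x l ih =>
    exact ((h x (by simp)).and (ih fun y hy => h y (by simp [hy]))).mono
      (by rw [List.length_cons, add_mul]; omega) fun _ _ _ _ _ h => List.forall_mem_cons.2 h

theorem pres {E : Subgroup G} (hE : Φ.range = E) {g r : ℕ}
    (h : Rels Φ k fun _ _ ψ φ => Function.Surjective ψ → Function.Injective φ) (hH : PresN H g r) :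
    PresN E g (r + k) := by
  obtain ⟨π, hπ⟩ := hH
  obtain ⟨R, h1, h2, h3⟩ := h
  refine ⟨_, (hπ.cover (Φ.codRestrict E fun x => hE ▸ ⟨x, rfl⟩)
    (fun y => let ⟨x, hx⟩ := hE.ge y.2; ⟨x, Subtype.ext hx⟩) (R.map fun x => (x, {1})) (by
      simp only [List.forall_mem_map, Set.mem_singleton_iff, exists_eq_left, map_one]
      exact fun x hx => Subtype.ext (h2 x hx)) fun J _ ψ φ a1 a2 a3 => ?_).mono (by simpa)⟩
  exact .of_comp (f := E.subtype) (h3 J ψ (E.subtype.comp φ) (fun x => congrArg Subtype.val (a2 x))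
    (by simpa using a3) a1)

end Rels

end Cfsg.Agent.Pres
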